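import Cfsg.Agent.H708.E7O.Red

/-!
# S5719: `KillO` for `E₇(q)` (helper708)

* `Box F` : the bound on the centralisers of involutions in `Y^φ` (`q` odd);
* `e7_of_box` : the cell.
-/

set_option autoImplicit false
set_option linter.unusedSectionVars false

namespace Cfsg.Agent.H708.E7O

open CoxeterSystem Subgroup Cfsg Cfsg.Lie Cfsg.Lie.ChevalleyDatum
open Cfsg.Agent.ChevalleyStructure Cfsg.Agent.ChevalleyStructure.Elts
open Cfsg.Agent.GpExc.Field (emb coe_emb coe_glMap emb_injective)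
open Cfsg.Agent.H129.TorusUntw
open Cfsg.Agent.H209.Fxy Cfsg.Agent.H249.Pi.FldType Cfsg.Agent.BpExc.Pair
open Cfsg.Agent.H35.ExcIdx (hpE7)

universe u

/-- **The box** (`q` odd): subgroups of odd order of `C_Y(x)^φ` have index at least `q ^ 28`. -/
def Box (F : Type u) [Field F] [Fintype F] : Prop :=
  ∀ (r : ℕ) [Fact r.Prime] [CharP F r] (e : ℕ), r ≠ 2 → Fintype.card F = r ^ e →
    ∀ x : ↥(chevE7.group (kk F)), phi chevE7 (kk F) r e x = x → x * x = 1 →
      ∀ X : Subgroup ↥(fixC (phi chevE7 (kk F) r e) x), Odd (Nat.card X) → (r ^ e) ^ 28 ≤ X.index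

/-- characteristic two: diagonal automorphisms are inner -/
theorem diag_inner {F : Type u} [Field F] [Finite F] [CharP F 2] {d : MulAut ↥(chevE7.group F)}
    (hd : chevE7.IsDiagonalAut d) : ∃ c : ↥(chevE7.group F), d = MulAut.conj c := by
  have : Fact (Nat.Prime 2) := ⟨Nat.prime_two⟩
  have : PerfectRing F 2 := PerfectRing.ofFiniteOfIsReduced 2 F
  obtain ⟨t, -, ht⟩ := Cfsg.Agent.H296.Core.diag_ext hpE7 (RingHom.id F) Cfsg.Agent.H129.TorusChar.invC_E7 two_ne_zero
    (fun c _ => (surjective_frobenius F 2) c) hd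
  refine ⟨t, MulEquiv.ext fun a => ?_⟩
  have h1 : ∀ a : ↥(chevE7.group F), emb hpE7.inList (RingHom.id F) a = a := by
    intro a
    apply Subtype.ext
    rw [coe_emb]
    apply Units.ext
    rw [coe_glMap]
    ext i j
    rfl
  have h2 := ht a
  rw [h1, h1] at h2
  exact h2

/-- **The cell from the box.** -/
theorem e7_of_box {F : Type u} [Field F] [Fintype F] (hbox : Box F) : KillO (chevE7.group F) := by
  intro A Γ h hO
  obtain ⟨σ, hσ, h2, -⟩ := Cfsg.Agent.H460.IFO.exists_outer h hO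
  obtain ⟨y, d, φ, hd, hφ, es⟩ := fac7 σ
  by_cases hφ1 : φ = 1
  · subst hφ1
    rw [mul_one] at es
    obtain ⟨r, hr⟩ := CharP.exists F
    have hp : Fact r.Prime := ⟨CharP.char_is_prime F r⟩
    by_cases hr2 : r = 2
    · subst hr2
      obtain ⟨c, rfl⟩ := diag_inner hd
      exact Cfsg.Agent.H460.IFO.ne_conj h hO hσ h2 (y * c) (by rw [es, map_mul])
    · obtain ⟨n, -, hq⟩ := FiniteField.card F r
      exact diag_false r hr2 hq h hO hσ h2 hd es (hbox r n hr2 hq)
  · refine Cfsg.Agent.H460.IFO.no_field (by simp [Ex5]) h hO hσ h2 (y := y) hd hφ hφ1 fun a => ?_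
    rw [es]
    rfl

end Cfsg.Agent.H708.E7O
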