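import Cfsg.Agent.H460.IFO.Base

/-!
# S5719, `E₇`, `|A|` odd: transfer to an overgroup (helper708)

`e : T →* Y` injective, `C ≤ Y` finite, `e a ∈ C ↔ σ a = a`, `|C : C ∩ e T| ≤ 2`; if all subgroups of odd order of
`C` have index at least `n`, then `n ^ 6 < 64 |T : A|`.
-/

set_option autoImplicit false
set_option linter.unusedSectionVars false

namespace Cfsg.Agent.H708.E7O

open Subgroup Cfsg.Agent.H209.Fxy

universe u v

variable {T : Type u} [Group T] [Finite T] {A : Subgroup T} {Γ : Subgroup (MulAut T)} {Y : Type v} [Group Y]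

theorem index_le_two {C : Type v} [Group C] (N : Subgroup C) (h : ∀ a b : C, a ∉ N → b ∉ N → a * b ∈ N) :
    N.index ≤ 2 ∧ N.index ≠ 0 := by
  by_cases hN : N = ⊤
  · rw [hN, index_top]; exact ⟨by norm_num, one_ne_zero⟩
  · obtain ⟨a, ha⟩ : ∃ a, a ∉ N := by
      by_contra hcon
      push Not at hcon
      exact hN (eq_top_iff.2 fun x _ => hcon x)
    have h2 : N.index = 2 := by
      rw [index_eq_two_iff]
      refine ⟨a, fun b => ?_⟩
      by_cases hb : b ∈ N
      · right
        refine ⟨hb, fun hc => ha ?_⟩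
        have := mul_mem (inv_mem hb) hc
        rwa [inv_mul_cancel_left] at this
      · left
        exact ⟨h b a hb ha, hb⟩
    rw [h2]
    exact ⟨le_rfl, two_ne_zero⟩

/-- **Transfer.** -/
theorem transfer (h : IF A Γ) (hO : Odd (Nat.card A)) {σ : MulAut T} (hσ : σ ∈ Γ) (h2 : orderOf σ = 2) (e : T →* Y)
    (he : Function.Injective e) {C : Subgroup Y} (hC : ∀ a, e a ∈ C ↔ σ a = a)
    (hidx : ∀ a ∈ C, ∀ b ∈ C, a ∉ e.range → b ∉ e.range → a * b ∈ e.range) {n : ℕ}
    (hbox : ∀ X : Subgroup ↥C, Odd (Nat.card X) → n ≤ X.index) : n ^ 6 < 64 * A.index := by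
  -- the fixed points
  set B : Subgroup T := C.comap e with hB
  let j : ↥B →* ↥C := (e.comp B.subtype).codRestrict C (fun b => b.2)
  have hj : Function.Injective j := by
    intro a b hab
    have h3 : e a.1 = e b.1 := congrArg Subtype.val hab
    exact Subtype.ext (he h3)
  set X : Subgroup ↥C := (A.subgroupOf B).map j with hX
  have hXo : Odd (Nat.card X) := by
    have h3 : Nat.card X = Nat.card (A.subgroupOf B) :=
      (Nat.card_congr ((A.subgroupOf B).equivMapOfInjective j hj).toEquiv).symm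
    rw [h3]
    have h4 : Nat.card (A.subgroupOf B) = Nat.card ((A.subgroupOf B).map B.subtype) :=
      Nat.card_congr ((A.subgroupOf B).equivMapOfInjective B.subtype B.subtype_injective).toEquiv
    rw [h4]
    refine hO.of_dvd_nat (Subgroup.card_dvd_of_le ?_)
    rintro _ ⟨a, ha, rfl⟩
    exact ha
  have h3 := hbox X hXo
  rw [hX, Subgroup.index_map_of_injective _ hj] at h3
  have h4 : j.range.index ≤ 2 := by
    refine (index_le_two j.range fun a b ha hb => ?_).1
    have key : ∀ c : ↥C, c ∈ j.range ↔ (c : Y) ∈ e.range := by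
      intro c
      constructor
      · rintro ⟨x, rfl⟩
        exact ⟨x.1, rfl⟩
      · rintro ⟨x, hx⟩
        have hxB : x ∈ B := by
          show e x ∈ C
          rw [hx]
          exact c.2
        exact ⟨⟨x, hxB⟩, Subtype.ext hx⟩
    rw [key] at ha hb ⊢
    exact hidx _ a.2 _ b.2 ha hb
  have h5 := (Cfsg.Agent.H680.Fxy.IF.E1 h hσ h2 (B := B) (fun b hb => (hC b).1 hb)).2
  have h6 : n ≤ A.relIndex B * 2 := h3.trans (Nat.mul_le_mul_left _ h4)
  calc n ^ 6 ≤ (A.relIndex B * 2) ^ 6 := Nat.pow_le_pow_left h6 6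
    _ = 64 * A.relIndex B ^ 6 := by ring
    _ < 64 * A.index := by omega

end Cfsg.Agent.H708.E7O
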